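import Cfsg.Agent.CpAutMSeven.AbsE
import Cfsg.Agent.MFive.Row
import Cfsg.Agent.MonsterX.ThreeCFinal
import Cfsg.Agent.MonsterX.InstanceFinal
import Cfsg.Agent.KFacts.Th.Main

/-!
# A Thompson group in the centralizer of an involution of the class 2A (helper13)

The Thompson group `T` of the model contains `z` and centralizes an element `y` of order 3; `y` is inverted by an element of
`C(z)` (a permutation), hence by an involution centralizing `T`.
-/

set_option autoImplicit false
set_option maxRecDepth 100000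

namespace Cfsg.Agent.CpAutMSeven.HexE

open Subgroup Cfsg
open Cfsg.Agent.LThreeMB (KChart.Cent KChart.pi KChart.chart)
open Cfsg.Agent.MonsterX Cfsg.Agent.MonsterX.Space Cfsg.Agent.MonsterX.Model Cfsg.Agent.MonsterX.InstData
open Cfsg.Agent.MonsterX.BaseVec Cfsg.Agent.MonsterX.MainPack
open Cfsg.Agent.MonsterX.ThreeCInst (wp run wp_table ind_word isPerm_mul pidx_eq)
open Cfsg.Agent.MonsterX.CoThreeDPerm Cfsg.Agent.SporadicA
open Cfsg.Agent.SporadicA.M24Gens (pidx pidx_injective)
open Cfsg.Agent.MonsterX.FrameStab (IsPerm)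
open Cfsg.Agent.MonsterU
open Cfsg.Spor (Co1)

/-- a permutation inverting `pi3` -/
def wI : List ℕ := [43, 36, 36, 38, 43, 42, 42, 38, 43, 43]

theorem wp_inv : pi3 * (wp wI * pi3) = wp wI := by
  apply Equiv.ext
  intro p
  apply pidx_injective
  show pidx (pi3 (wp wI (pi3 p))) = _
  rw [pidx_eq (pi3 _), idx_pi3, ← pidx_eq, wp_table _ (by decide), pidx_eq (pi3 p), idx_pi3, ← pidx_eq,
    wp_table _ (by decide)]
  have h : ∀ i < 24, T.getD (run wI (T.getD i 0)) 0 = run wI i := by decide +kernel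
  exact h _ (CoGens.pidx_lt p)

theorem isPerm_unique {A B : Co0} {σ : Equiv.Perm GolayPt} (hA : IsPerm A σ) (hB : IsPerm B σ) : A = B := by
  apply Subtype.ext
  apply Equiv.ext
  intro v
  apply Subtype.ext
  funext p
  exact (hA v p).trans (hB v p).symm

theorem exists_inverting : ∃ r s : Co0, UOnto.Ind (Conc.W ProgM.Thx.word) r ∧ r * (s * r) = s := by
  obtain ⟨r, hr, hi⟩ := ThreeCInst.exists_ind
  obtain ⟨s, hs, -⟩ := ind_word wI (by decide)
  refine ⟨r, s, hi, isPerm_unique (isPerm_mul hr (isPerm_mul hs hr)) ?_⟩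
  rw [wp_inv]
  exact hs

/-- the group of the model -/
abbrev GM : Type := ↥InstData.M.G

theorem z_val : ((KDone.K.z : GM) : V ≃ₗ[ℚ] V) = Conc.z := by
  have h := MFive.Model.z_eq KDone.lnk KDone.mGroup
  rw [← h]
  rfl

theorem noncomm_th : ¬ ∀ a b : Spor.Th, a * b = b * a := by
  intro hab
  have hs := Th.Main1700.isTh.1
  have hf : Finite Spor.Th := Th.Main1700.final.1
  have hp : (Nat.card Spor.Th).Prime := by
    let _ : CommGroup Spor.Th := { (inferInstance : Group Spor.Th) with mul_comm := hab }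
    exact IsSimpleGroup.prime_card
  rw [Th.Main1700.final.2.1] at hp
  have h2 : 2 ∣ 90745943887872000 := by norm_num
  rcases (Nat.dvd_prime hp).mp h2 with h | h <;> norm_num at h

/-- **The Thompson group and the element `y`.** -/
theorem exists_part : ∃ (y : GM) (T : Subgroup GM) (_ : T ≃* Spor.Th), orderOf y = 3 ∧ (y : V ≃ₗ[ℚ] V) = ThPart.x ∧
    T ≤ centralizer ({y} : Set GM) ∧ (KDone.K.z : GM) ∈ T := by
  obtain ⟨y, hy, hy3, T, hTy, -, e, he⟩ := ThPart.part InstanceFinal.pack Th.Main1700.isTh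
  obtain ⟨haT, hea⟩ := he .a
  refine ⟨y, T, e, hy3, hy, hTy, ?_⟩
  have h1 : (⟨ThPart.f .a, ThLet.mem_G InstanceFinal.pack.tau _⟩ : Conc.G) = KDone.K.z := by
    apply Subtype.ext
    rw [z_val]
    exact ThPart.f_a
  rw [← h1]
  exact haT

theorem orderOf_z : orderOf (KDone.K.z : GM) = 2 := by
  rw [← MFive.Model.z_eq KDone.lnk KDone.mGroup]
  exact MainPack.orderOf_z KDone.mGroup

/-- the order of `C(y)` -/
theorem card_cent {y : GM} {T : Subgroup GM} (e : T ≃* Spor.Th) (hy3 : orderOf y = 3)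
    (hy : (y : V ≃ₗ[ℚ] V) = ThPart.x) (hTy : T ≤ centralizer ({y} : Set GM)) (hz : (KDone.K.z : GM) ∈ T) :
    Nat.card ↥(centralizer ({y} : Set GM)) = orderOf y * Nat.card Spor.Th := by
  have := MFive.Row.finite_model
  have hs := Th.Main1700.isTh.1
  have hfT : Finite Spor.Th := Th.Main1700.final.1
  have hez : orderOf (e ⟨_, hz⟩) = 2 := by
    rw [← orderOf_z, ← Subgroup.orderOf_mk _ hz]
    exact orderOf_injective e.toMonoidHom e.injective _
  have hord' : 92897280 ≤ Nat.card (T ⊓ centralizer ({(KDone.K.z : GM)} : Set GM) : Subgroup GM) := by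
    rw [← ThOneClass.card_centralizer hez]
    refine Nat.card_le_card_of_injective
      (fun c : centralizer ({e ⟨_, hz⟩} : Set Spor.Th) =>
        (⟨(e.symm (c : Spor.Th) : T), ⟨(e.symm (c : Spor.Th)).2, ?_⟩⟩ :
          (T ⊓ centralizer ({(KDone.K.z : GM)} : Set GM) : Subgroup GM))) ?_
    · refine mem_centralizer_singleton_iff.mpr ?_
      have h1 := mem_centralizer_singleton_iff.mp c.2
      have h2 : e.symm (c : Spor.Th) * ⟨_, hz⟩ = ⟨_, hz⟩ * e.symm (c : Spor.Th) := by
        apply e.injective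
        rw [map_mul, map_mul, e.apply_symm_apply]
        exact h1
      exact congrArg Subtype.val h2
    · intro a b hab
      have h1 : ((e.symm (a : Spor.Th) : T) : GM) = (e.symm (b : Spor.Th) : T) :=
        congrArg (fun w : (T ⊓ centralizer ({(KDone.K.z : GM)} : Set GM) : Subgroup GM) => (w : GM)) hab
      exact Subtype.ext (e.symm.injective (Subtype.ext h1))
  refine ThreeCPack.card_centralizer noncomm_th ThOneClass.closing (by rw [hy3]; decide) orderOf_z hTy e hz ?_
  rw [hy3]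
  calc _ ≤ 278691840 := ThreeCFinal.hb₀ InstanceFinal.pack.hG InstanceFinal.pack.hR InstanceFinal.pack.hL
        InstanceFinal.pack.hO Instance.mTrans hy z_val
    _ = 3 * 92897280 := by norm_num
    _ ≤ _ := Nat.mul_le_mul_left 3 hord'

/-- `y` is inverted in `C(z)` -/
theorem exists_k {y : GM} (hy3 : orderOf y = 3) (hy : (y : V ≃ₗ[ℚ] V) = ThPart.x)
    (hyz : y * KDone.K.z = KDone.K.z * y) : ∃ k : GM, k * y * k⁻¹ = y⁻¹ := by
  obtain ⟨r, s, hr, hs⟩ := exists_inverting
  let yc : centralizer ({(KDone.K.z : GM)} : Set GM) := ⟨y, mem_centralizer_singleton_iff.2 hyz⟩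
  have hA : FrameKS.Ind KDone.K (yc : GM) r := by
    have hx : ThPart.x = Conc.W ProgM.Thx.word := by
      show ThLet.Wt [.x] = _
      rw [ThLet.Wt_single]
      exact ProgM.Thx.eq_word
    intro v
    have h1 : (y : V ≃ₗ[ℚ] V) (USide.u v) = USide.u (r • v) := by
      rw [hy, hx]
      exact hr v
    exact h1
  have hpi : KChart.pi MFive.Row.hc yc = QuotientGroup.mk r := LThreeMB.KChart.pi_eq MFive.Row.hc hA
  have hy3' : yc ^ 3 = 1 := by
    apply Subtype.ext
    show y ^ 3 = 1
    rw [← hy3]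
    exact pow_orderOf_eq_one y
  have hconj : (QuotientGroup.mk s : Co1) * KChart.pi MFive.Row.hc yc * (QuotientGroup.mk s : Co1)⁻¹ =
      KChart.pi MFive.Row.hc yc⁻¹ := by
    rw [map_inv, hpi, ← QuotientGroup.mk_inv, ← QuotientGroup.mk_inv, ← QuotientGroup.mk_mul, ← QuotientGroup.mk_mul]
    congr 1
    have h1 : s * r = r⁻¹ * s := by rw [eq_inv_mul_iff_mul_eq]; exact hs
    rw [h1, mul_inv_cancel_right]
  obtain ⟨c, hc⟩ := MFive.exists_conj_of_conj (KChart.chart KDone.lft MFive.Row.hc) Nat.prime_three (by decide) hy3'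
    (by rw [inv_pow, hy3', inv_one]) hconj
  exact ⟨c, congrArg Subtype.val hc⟩

/-- **A Thompson group containing `z` in the centralizer of an involution `g`.** -/
theorem exists_th : ∃ (g : GM) (T : Subgroup GM) (_ : T ≃* Spor.Th), orderOf g = 2 ∧
    T ≤ centralizer ({g} : Set GM) ∧ (KDone.K.z : GM) ∈ T := by
  have := MFive.Row.finite_model
  have hs := Th.Main1700.isTh.1
  obtain ⟨y, T, e, hy3, hy, hTy, hz⟩ := exists_part
  obtain ⟨k, hk⟩ := exists_k hy3 hy (mem_centralizer_singleton_iff.1 (hTy hz)).symm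
  obtain ⟨g, hg, hgT, -⟩ := AbsE.exists_invol noncomm_th (fun α => by
      obtain ⟨s, hs⟩ := KFacts.Th.Main.inner α
      exact ⟨s, fun x => by rw [hs]; rfl⟩) hy3 hTy e
    (card_cent e hy3 hy hTy hz) hk
  exact ⟨g, T, e, hg, hgT, hz⟩

end Cfsg.Agent.CpAutMSeven.HexE
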